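import Cfsg.Agent.ChevalleyStructure.NPerm
import Cfsg.Agent.S1033
import Cfsg.Agent.H720.HT.DD

/-!
# S4933: the second derived subgroup of a Sylow 3-subgroup of `E₆(q)`, `E₇(q)`, `E₈(q)`, `3 ∣ q - 1`

* `dd_of_perm` : abelian normal subgroup `T`, quotient a `p`-group `S`;
* `dd_chev` : `D.group F` with a cube root of unity in `F` and three commuting rotations of the root system;
* `dd_e6`, `dd_e7`, `dd_e8`.
-/

set_option autoImplicit false

namespace Cfsg.Agent.H584.HT

open Subgroup Cfsg.Lie Cfsg.Agent.ChevalleyStructure.Elts Cfsg.Agent.ChevalleyStructure.NPerm Cfsg.Agent.H720.HT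
open scoped commutatorElement

universe u

/-- A Sylow subgroup of the preimage of a `p`-group of `X` sees all the cosets and the `p`-part of the kernel. -/
theorem dd_of_perm {p : ℕ} [Fact p.Prime] {N X : Type*} [Group N] [Group X] [Finite N] (π : N →* X)
    (hab : ∀ x ∈ π.ker, ∀ y ∈ π.ker, x * y = y * x) (S : Subgroup X) (hS : IsPGroup p S)
    (a b c : N) (ha : π a ∈ S) (hb : π b ∈ S) (hc : π c ∈ S) (t : N) (ht : t ∈ π.ker) (htp : t ^ p = 1)
    (hne : ∀ a' b' c' : N, π a' = π a → π b' = π b → π c' = π c → ⁅⁅t, a'⁆, ⁅b', c'⁆⁆ ≠ 1) : DD p N := by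
  let H : Subgroup N := S.comap π
  obtain ⟨P⟩ : Nonempty (Sylow p H) := inferInstance
  let g : H →* H.map π := π.subgroupMap H
  have hg : Function.Surjective g := MonoidHom.subgroupMap_surjective π H
  have hQ : IsPGroup p (H.map π) := hS.to_le (Subgroup.map_comap_le _ _)
  have hfin : Finite (H.map π) := Finite.of_surjective g hg
  have hmap : (P : Subgroup H).map g = ⊤ := by
    have hidx : ¬ p ∣ ((P : Subgroup H).map g).index := fun hd => P.not_dvd_index (hd.trans (index_map_dvd _ hg))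
    obtain ⟨n, hn⟩ := hQ.exists_card_eq
    have hi : ((P : Subgroup H).map g).index ∣ p ^ n := hn ▸ index_dvd_card _
    obtain ⟨k, -, hk⟩ := (Nat.dvd_prime_pow Fact.out).1 hi
    rcases Nat.eq_zero_or_pos k with rfl | hk0
    · exact index_eq_one.1 (by simpa using hk)
    · exact absurd (hk ▸ dvd_pow_self p hk0.ne') hidx
  -- representatives in `P`
  have hrep : ∀ x : N, π x ∈ S → ∃ x' : H, x' ∈ P ∧ π x' = π x := by
    intro x hx
    have h1 : (⟨π x, ⟨x, hx, rfl⟩⟩ : H.map π) ∈ (P : Subgroup H).map g := by rw [hmap]; trivial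
    obtain ⟨z, hz, hz2⟩ := h1
    exact ⟨z, hz, congrArg Subtype.val hz2⟩
  -- the elements of order `p` of the kernel
  let T3 : Subgroup H :=
    { carrier := {x | π x = 1 ∧ (x : N) ^ p = 1}
      one_mem' := ⟨map_one _, one_pow _⟩
      mul_mem' := by
        rintro x y ⟨hx, hx3⟩ ⟨hy, hy3⟩
        refine ⟨by simp [hx, hy], ?_⟩
        have hc : Commute (x : N) (y : N) := hab _ hx _ hy
        show ((x : N) * (y : N)) ^ p = 1
        rw [hc.mul_pow, hx3, hy3, one_mul]
      inv_mem' := by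
        rintro x ⟨hx, hx3⟩
        exact ⟨by simp [hx], by simp [hx3]⟩ }
  have hT3n : T3.Normal := by
    refine ⟨?_⟩
    rintro x ⟨hx, hx3⟩ y
    refine ⟨by simp [hx], ?_⟩
    show ((y : N) * (x : N) * (y : N)⁻¹) ^ p = 1
    rw [conj_pow, hx3, mul_one, mul_inv_cancel]
  have hT3p : IsPGroup p T3 := by
    rintro ⟨x, hx⟩
    refine ⟨1, Subtype.ext (Subtype.ext ?_)⟩
    show (x : N) ^ p ^ 1 = 1
    rw [pow_one]
    exact hx.2
  have hle : T3 ≤ (P : Subgroup H) := by
    have h1 : IsPGroup p ((P : Subgroup H) ⊔ T3 : Subgroup H) := P.2.to_sup_of_normal_right hT3p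
    have h2 := P.3 h1 le_sup_left
    rw [← h2]
    exact le_sup_right
  obtain ⟨a', ha', ea⟩ := hrep a ha
  obtain ⟨b', hb', eb⟩ := hrep b hb
  obtain ⟨c', hc', ec⟩ := hrep c hc
  have htH : t ∈ H := by
    show π t ∈ S
    rw [show π t = 1 from ht]
    exact S.one_mem
  have ht' : (⟨t, htH⟩ : H) ∈ (P : Subgroup H) := hle ⟨ht, htp⟩
  have h3 := DD.of_mem (p := p) (P : Subgroup H) P.2 ht' ha' hb' hc' (fun h => hne a' b' c' ea eb ec (by
    have := congrArg H.subtype h
    rw [map_one, map_commutatorElement, map_commutatorElement, map_commutatorElement] at this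
    exact this))
  exact h3.of_subgroup

theorem ap_inv {α : Type*} (π : Equiv.Perm α) (r : α) : π (π⁻¹ r) = r := Equiv.apply_symm_apply π r

section Weights

variable {F : Type u} [Field F] {D : ChevalleyDatum}

/-- `g` acts on the root elements with the weights `χ` -/
def Wt (hD : InList D) (g : GL D.Idx F) (χ : Fin D.nroots → F) : Prop :=
  ∀ (r : Fin D.nroots) (t : F), g * xG hD r t * g⁻¹ = xG hD r (χ r * t)

/-- `n` permutes the root elements like `π`, with nonzero scalars -/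
def Mv (hD : InList D) (n : GL D.Idx F) (π : Equiv.Perm (Fin D.nroots)) : Prop :=
  ∀ r : Fin D.nroots, ∃ η : F, η ≠ 0 ∧ ∀ t : F, n * xG hD r t * n⁻¹ = xG hD (π r) (η * t)

theorem Mv.one (hD : InList D) : Mv (F := F) hD 1 1 := fun r => ⟨1, one_ne_zero, fun t => by simp⟩

theorem Mv.mul {hD : InList D} {m n : GL D.Idx F} {π ρ : Equiv.Perm (Fin D.nroots)} (h1 : Mv hD m π)
    (h2 : Mv hD n ρ) : Mv hD (m * n) (π * ρ) := by
  intro r
  obtain ⟨η, hη, h⟩ := h2 r
  obtain ⟨θ, hθ, k⟩ := h1 (ρ r)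
  refine ⟨θ * η, mul_ne_zero hθ hη, fun t => ?_⟩
  rw [Equiv.Perm.mul_apply, mul_assoc θ, ← k, ← h]
  group

theorem Mv.inv {hD : InList D} {n : GL D.Idx F} {π : Equiv.Perm (Fin D.nroots)} (h1 : Mv hD n π) :
    Mv hD n⁻¹ π⁻¹ := by
  intro r
  obtain ⟨η, hη, h⟩ := h1 (π⁻¹ r)
  refine ⟨η⁻¹, inv_ne_zero hη, fun t => ?_⟩
  have h2 := h (η⁻¹ * t)
  rw [← mul_assoc, mul_inv_cancel₀ hη, one_mul, ap_inv] at h2
  rw [← h2]
  group

theorem Wt.mul {hD : InList D} {g h : GL D.Idx F} {χ ψ : Fin D.nroots → F} (h1 : Wt hD g χ) (h2 : Wt hD h ψ) :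
    Wt hD (g * h) (fun r => χ r * ψ r) := by
  intro r t
  rw [mul_assoc (χ r), ← h1, ← h2]
  group

theorem Wt.inv {hD : InList D} {g : GL D.Idx F} {χ : Fin D.nroots → F} (h1 : Wt hD g χ) (h0 : ∀ r, χ r ≠ 0) :
    Wt hD g⁻¹ (fun r => (χ r)⁻¹) := by
  intro r t
  have h2 := h1 r ((χ r)⁻¹ * t)
  rw [← mul_assoc, mul_inv_cancel₀ (h0 r), one_mul] at h2
  rw [← h2]
  group

theorem Wt.conj {hD : InList D} {g n : GL D.Idx F} {χ : Fin D.nroots → F} {π : Equiv.Perm (Fin D.nroots)}
    (h1 : Wt hD g χ) (h2 : Mv hD n π) : Wt hD (n * g * n⁻¹) (fun r => χ (π⁻¹ r)) := by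
  intro r t
  obtain ⟨η, hη, h⟩ := h2 (π⁻¹ r)
  have h3 := h (η⁻¹ * t)
  rw [← mul_assoc, mul_inv_cancel₀ hη, one_mul, ap_inv] at h3
  have h4 := h (χ (π⁻¹ r) * (η⁻¹ * t))
  rw [ap_inv] at h4
  have e : η * (χ (π⁻¹ r) * (η⁻¹ * t)) = χ (π⁻¹ r) * t := by field_simp
  rw [e, ← h1] at h4
  rw [← h3]
  show _ = xG hD r (χ (π⁻¹ r) * t)
  rw [← h4]
  group

theorem Wt.eq_one {hD : InList D} {χ : Fin D.nroots → F} (h1 : Wt hD (1 : GL D.Idx F) χ) (r : Fin D.nroots) :
    χ r = 1 := by
  have h2 := h1 r 1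
  rw [one_mul, inv_one, mul_one, mul_one] at h2
  exact (xG_injective hD r.2 h2).symm

/-- diagonal matrices -/
theorem exists_diagonal (hD : InList D) {g : GL D.Idx F} (hg : g ∈ D.diagonalSubgroup F) :
    ∃ d : D.Idx → F, (g : Matrix D.Idx D.Idx F) = Matrix.diagonal d := by
  obtain ⟨c, hc, h⟩ := Cfsg.Agent.S1034.result D hD g hg
  rw [h]
  have : ∀ l : List ℕ, (∀ i ∈ l, i < D.rank) →
      ∃ d : D.Idx → F, D.wordMat F (l.flatMap fun i => D.hWord (D.simple i) (c i)) = Matrix.diagonal d := by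
    intro l
    induction l with
    | nil =>
      intro _
      exact ⟨fun _ => 1, by rw [List.flatMap_nil, wordMat_nil, Matrix.diagonal_one]⟩
    | cons i l ih =>
      intro hl
      obtain ⟨d, hd⟩ := ih fun j hj => hl j (List.mem_cons_of_mem _ hj)
      have h1 := Cfsg.Agent.S1033.result (F := F) D hD i (hl i List.mem_cons_self) (c i)
        (hc i (hl i List.mem_cons_self))
      refine ⟨fun j => (Sum.elim (fun _ => (1 : F)) (fun s : Fin D.nroots => (c i) ^ (D.cartan i s)) j) * d j, ?_⟩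
      rw [List.flatMap_cons, wordMat_append, hd, show D.wordMat F (D.hWord (D.simple i) (c i)) =
          D.hMat F (D.simple i) (c i) from rfl, h1, Matrix.diagonal_mul_diagonal]
  exact this _ fun i hi => List.mem_range.1 hi

theorem diagonal_comm (hD : InList D) {g h : GL D.Idx F} (hg : g ∈ D.diagonalSubgroup F)
    (hh : h ∈ D.diagonalSubgroup F) : g * h = h * g := by
  obtain ⟨d, hd⟩ := exists_diagonal hD hg
  obtain ⟨e, he⟩ := exists_diagonal hD hh
  apply Units.ext
  rw [Units.val_mul, Units.val_mul, hd, he, Matrix.diagonal_mul_diagonal, Matrix.diagonal_mul_diagonal]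
  congr 1
  funext i
  exact mul_comm _ _

theorem mv_nG (hD : InList D) {i : ℕ} (hi : i < D.rank) {π : Equiv.Perm (Fin D.nroots)}
    (hπ : ∀ r, ((π r : Fin D.nroots) : ℕ) = D.reflectRoot i r) : Mv (F := F) hD (nG hD (D.simple i) 1) π := by
  intro s
  obtain ⟨η, hη, h⟩ := Cfsg.Agent.S1031.result (F := F) D hD i s hi s.2
  refine ⟨(η : F), ?_, ?_⟩
  · rcases hη with rfl | rfl <;> simp
  · intro t
    rw [mul_inv_eq_iff_eq_mul, hπ]
    apply Units.ext
    rw [Units.val_mul, Units.val_mul, coe_nG, coe_xG, coe_xG]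
    exact h t

theorem wt_hG (hD : InList D) {i : ℕ} (hi : i < D.rank) {c : F} (hc : c ≠ 0) :
    Wt hD (hG hD (D.simple i) c) (fun r => c ^ D.cartan i r) := by
  intro s t
  have h := Cfsg.Agent.S1032.result (F := F) D hD i s hi s.2 c hc t
  rw [mul_inv_eq_iff_eq_mul]
  apply Units.ext
  rw [Units.val_mul, Units.val_mul, coe_hG, coe_xG, coe_xG]
  exact h

theorem mv_diagonal (hD : InList D) {h : GL D.Idx F} (hh : h ∈ D.diagonalSubgroup F) : Mv hD h 1 := by
  obtain ⟨c, hc, hg⟩ := Cfsg.Agent.S1034.result D hD h hh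
  rw [(eq_wordG_iff hD h _).2 hg]
  have : ∀ l : List ℕ, (∀ i ∈ l, i < D.rank) →
      Mv hD (wordG hD (l.flatMap fun i => D.hWord (D.simple i) (c i))) 1 := by
    intro l
    induction l with
    | nil =>
      intro _
      exact Mv.one hD
    | cons i l ih =>
      intro hl
      rw [List.flatMap_cons, wordG_append]
      have h1 : Mv hD (hG hD (D.simple i) (c i)) 1 := fun r =>
        ⟨(c i) ^ D.cartan i r, zpow_ne_zero _ (hc i (hl i List.mem_cons_self)),
          wt_hG hD (hl i List.mem_cons_self) (hc i (hl i List.mem_cons_self)) r⟩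
      have := h1.mul (ih fun j hj => hl j (List.mem_cons_of_mem _ hj))
      rw [one_mul] at this
      exact this
  exact this _ fun i hi => List.mem_range.1 hi

/-- the elements of `N` permute the root elements -/
theorem mv_monomial (hD : InList D) (n : ↥(D.monomialSubgroup F)) : Mv hD (n : GL D.Idx F) (permHom hD F n) := by
  let K : Subgroup ↥(D.monomialSubgroup F) :=
    { carrier := {n | Mv hD (n : GL D.Idx F) (permHom hD F n)}
      one_mem' := by
        show Mv hD ((1 : ↥(D.monomialSubgroup F)) : GL D.Idx F) (permHom hD F 1)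
        rw [map_one]
        exact Mv.one hD
      mul_mem' := by
        intro a b ha hb
        show Mv hD ((a * b : ↥(D.monomialSubgroup F)) : GL D.Idx F) (permHom hD F (a * b))
        rw [map_mul]
        exact Mv.mul ha hb
      inv_mem' := by
        intro a ha
        show Mv hD ((a⁻¹ : ↥(D.monomialSubgroup F)) : GL D.Idx F) (permHom hD F a⁻¹)
        rw [map_inv]
        exact Mv.inv ha }
  have hle : D.monomialSubgroup F ≤ K.map (D.monomialSubgroup F).subtype := by
    conv_lhs => rw [monomial_eq hD F]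
    refine sup_le ((Subgroup.closure_le _).2 ?_) ?_
    · rintro g ⟨i, hi, rfl⟩
      refine ⟨⟨nG hD (D.simple i) 1, nG_simple_mem hD F hi⟩, ?_, rfl⟩
      exact mv_nG hD hi fun r => permHom_nG hD hi _ (coe_nG hD _ _) r
    · intro g hg
      refine ⟨⟨g, diagonal_le_monomial D F hg⟩, ?_, rfl⟩
      show Mv hD g (permHom hD F _)
      rw [permHom_diagonal hD hg]
      exact mv_diagonal hD hg
  obtain ⟨m, hm, hmn⟩ := hle n.2
  have : m = n := Subtype.ext hmn
  rw [← this]
  exact hm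

/-- the reflection as a permutation of the roots, for a table `R` -/
theorem exists_word (hD : InList D) (F : Type u) [Field F] (R : ℕ → Equiv.Perm (Fin D.nroots))
    (hR : ∀ i < D.rank, ∀ r, ((R i r : Fin D.nroots) : ℕ) = D.reflectRoot i r) (w : List ℕ) (hw : ∀ i ∈ w, i < D.rank) :
    ∃ n : ↥(D.monomialSubgroup F), permHom hD F n = (w.map R).prod := by
  induction w with
  | nil => exact ⟨1, by simp⟩
  | cons i w ih =>
    obtain ⟨n, hn⟩ := ih fun j hj => hw j (List.mem_cons_of_mem _ hj)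
    have hi := hw i List.mem_cons_self
    refine ⟨⟨nG hD (D.simple i) 1, nG_simple_mem hD F hi⟩ * n, ?_⟩
    rw [map_mul, hn, List.map_cons, List.prod_cons]
    congr 1
    ext r
    rw [permHom_nG hD hi _ (coe_nG hD _ _), hR i hi]

end Weights

/-- the group generated by commuting elements of order `3` permuted by an element of order `3` -/
theorem isPGroup_wr {X : Type*} [Group X] (y s : X) (hy : y ^ 3 = 1) (hs : s ^ 3 = 1)
    (h1 : Commute y (s * y * s⁻¹)) (h2 : Commute y (s⁻¹ * y * s)) (h3 : Commute (s * y * s⁻¹) (s⁻¹ * y * s)) :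
    ∃ S : Subgroup X, IsPGroup 3 S ∧ y ∈ S ∧ s ∈ S := by
  let Y : Set X := {y, s * y * s⁻¹, s⁻¹ * y * s}
  have hY : ∀ a ∈ Y, ∀ b ∈ Y, a * b = b * a := by
    rintro a (rfl | rfl | rfl) b (rfl | rfl | rfl)
    · rfl
    · exact h1
    · exact h2
    · exact h1.symm
    · rfl
    · exact h3
    · exact h2.symm
    · exact h3.symm
    · rfl
  let A : Subgroup X := closure Y
  have hA : ∀ a ∈ A, ∀ b ∈ A, a * b = b * a := by
    have : A ≤ centralizer (A : Set X) := by
      have e1 : A ≤ centralizer Y := by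
        rw [closure_le]
        intro a ha b hb
        exact hY b hb a ha
      have e2 : Y ⊆ centralizer (A : Set X) := by
        intro a ha b hb
        exact ((mem_centralizer_iff.1 (e1 hb)) a ha).symm
      exact (closure_le _).2 e2
    intro a ha b hb
    exact ((mem_centralizer_iff.1 (this ha)) b hb).symm
  have hA3 : ∀ a ∈ A, a ^ 3 = 1 := by
    intro a ha
    induction ha using closure_induction with
    | mem x hx =>
      rcases hx with rfl | rfl | rfl
      · exact hy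
      · rw [conj_pow, hy, mul_one, mul_inv_cancel]
      · have : s⁻¹ * y * s = s⁻¹ * y * (s⁻¹)⁻¹ := by rw [inv_inv]
        rw [this, conj_pow, hy, mul_one, mul_inv_cancel]
    | one => exact one_pow 3
    | mul x z hx hz ex ez =>
      have : Commute x z := hA x hx z hz
      rw [this.mul_pow, ex, ez, one_mul]
    | inv x _ ex => rw [inv_pow, ex, inv_one]
  have hAp : IsPGroup 3 A := fun a => ⟨1, Subtype.ext (by simpa using hA3 a a.2)⟩
  have hsp : IsPGroup 3 (zpowers s) := by
    rintro ⟨a, ha⟩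
    obtain ⟨k, rfl⟩ := mem_zpowers_iff.1 ha
    refine ⟨1, Subtype.ext ?_⟩
    show (s ^ k) ^ 3 ^ 1 = 1
    rw [pow_one, ← zpow_natCast, ← zpow_mul, mul_comm, zpow_mul, zpow_natCast, hs, one_zpow]
  have hss : s⁻¹ = s * s := by
    rw [inv_eq_iff_mul_eq_one, ← mul_assoc]
    simpa [pow_succ] using hs
  have hnorm : zpowers s ≤ normalizer (A : Set X) := by
    rw [zpowers_le]
    have key : ∀ a ∈ A, s * a * s⁻¹ ∈ A := by
      have : A ≤ A.comap (MulAut.conj s).toMonoidHom := by
        rw [closure_le]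
        rintro a (rfl | rfl | rfl)
        · exact subset_closure (Or.inr (Or.inl rfl))
        · show s * (s * y * s⁻¹) * s⁻¹ ∈ A
          have : s * (s * y * s⁻¹) * s⁻¹ = s⁻¹ * y * s := by
            have e : s⁻¹ * s⁻¹ = s := by rw [← mul_inv_rev, ← hss, inv_inv]
            calc s * (s * y * s⁻¹) * s⁻¹ = (s * s) * y * (s⁻¹ * s⁻¹) := by group
              _ = s⁻¹ * y * s := by rw [← hss, e]
          rw [this]
          exact subset_closure (Or.inr (Or.inr rfl))
        · show s * (s⁻¹ * y * s) * s⁻¹ ∈ A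
          have : s * (s⁻¹ * y * s) * s⁻¹ = y := by group
          rw [this]
          exact subset_closure (Or.inl rfl)
      intro a ha
      exact this ha
    have key2 : ∀ a ∈ A, s⁻¹ * a * s ∈ A := by
      intro a ha
      have e : s⁻¹ * a * s = s * (s * a * s⁻¹) * s⁻¹ := by
        have e : s⁻¹ * s⁻¹ = s := by rw [← mul_inv_rev, ← hss, inv_inv]
        calc s⁻¹ * a * s = (s * s) * a * (s⁻¹ * s⁻¹) := by rw [← hss, e]
          _ = s * (s * a * s⁻¹) * s⁻¹ := by group
      rw [e]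
      exact key _ (key _ ha)
    rw [mem_normalizer_iff]
    intro a
    constructor
    · exact key a
    · intro ha
      have := key2 _ ha
      have e : s⁻¹ * (s * a * s⁻¹) * s = a := by group
      rwa [e] at this
  exact ⟨zpowers s ⊔ A, hsp.to_sup_of_normal_right' hAp hnorm, le_sup_right (a := zpowers s) (subset_closure (Or.inl rfl)),
    le_sup_left (b := A) (mem_zpowers s)⟩

section Chev

variable {F : Type u} [Field F] {D : ChevalleyDatum}

/-- **The Chevalley groups with a cube root of unity.** -/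
theorem dd_chev [Finite F] (hD : InList D) (ζ : F) (hζ : ζ ^ 3 = 1) (hζ1 : ζ ≠ 1)
    (R : ℕ → Equiv.Perm (Fin D.nroots)) (hR : ∀ i < D.rank, ∀ r, ((R i r : Fin D.nroots) : ℕ) = D.reflectRoot i r)
    (wy ws : List ℕ) (hwy : ∀ i ∈ wy, i < D.rank) (hws : ∀ i ∈ ws, i < D.rank) (y s : Equiv.Perm (Fin D.nroots))
    (ey : (wy.map R).prod = y) (es : (ws.map R).prod = s) (hy : y ^ 3 = 1) (hs : s ^ 3 = 1)
    (h1 : y * (s * y * s⁻¹) = (s * y * s⁻¹) * y) (h2 : y * (s⁻¹ * y * s) = (s⁻¹ * y * s) * y)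
    (h3 : (s * y * s⁻¹) * (s⁻¹ * y * s) = (s⁻¹ * y * s) * (s * y * s⁻¹))
    (i : ℕ) (hi : i < D.rank) (r : Fin D.nroots)
    (hr : ¬ (3 : ℤ) ∣ (D.cartan i r - D.cartan i (s⁻¹ r)) -
      (D.cartan i ((⁅y, s⁆ : Equiv.Perm (Fin D.nroots))⁻¹ r) - D.cartan i (s⁻¹ ((⁅y, s⁆ : Equiv.Perm (Fin D.nroots))⁻¹ r)))) :
    DD 3 ↥(D.group F) := by
  have hζ0 : ζ ≠ 0 := by rintro rfl; simp at hζ
  have hfact : Fact (Nat.Prime 3) := ⟨Nat.prime_three⟩
  obtain ⟨S, hS, hyS, hsS⟩ := isPGroup_wr y s hy hs h1 h2 h3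
  obtain ⟨ny, hny⟩ := exists_word hD F R hR wy hwy
  obtain ⟨ns, hns⟩ := exists_word hD F R hR ws hws
  rw [ey] at hny
  rw [es] at hns
  have hker := ker_permHom hD F
  have hti : hG hD (D.simple i) ζ ∈ D.diagonalSubgroup F := hG_mem_diagonal hD (simple_lt hD hi) hζ0
  let t : ↥(D.monomialSubgroup F) := ⟨hG hD (D.simple i) ζ, diagonal_le_monomial D F hti⟩
  have ht : t ∈ (permHom hD F).ker := by
    rw [hker, mem_subgroupOf]
    exact hti
  have hfin : Finite ↥(D.monomialSubgroup F) := by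
    have : Finite (GL D.Idx F) := inferInstance
    infer_instance
  have ht3 : t ^ 3 = 1 := by
    apply Subtype.ext
    apply Units.ext
    show ((hG hD (D.simple i) ζ : GL D.Idx F) : Matrix D.Idx D.Idx F) ^ 3 = 1
    rw [coe_hG, Cfsg.Agent.S1033.result (F := F) D hD i hi ζ hζ0, Matrix.diagonal_pow, ← Matrix.diagonal_one]
    congr 1
    funext j
    rcases j with j | j
    · simp
    · show (ζ ^ D.cartan i j) ^ 3 = 1
      rw [← zpow_natCast, ← zpow_mul, mul_comm, zpow_mul]
      show ((ζ ^ ((3 : ℕ) : ℤ)) ^ _) = 1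
      rw [zpow_natCast, hζ, one_zpow]
  have hdd : DD 3 ↥(D.monomialSubgroup F) := by
    refine dd_of_perm (permHom hD F) ?_ S hS ns ny ns (by rw [hns]; exact hsS) (by rw [hny]; exact hyS)
      (by rw [hns]; exact hsS) t ht ht3 ?_
    · intro a ha b hb
      rw [hker, mem_subgroupOf] at ha hb
      exact Subtype.ext (diagonal_comm hD ha hb)
    · intro a b c ha hb hc hcon
      have ha := ha.trans hns
      have hb := hb.trans hny
      have hc := hc.trans hns
      have ma := mv_monomial hD a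
      have mb := mv_monomial hD b
      have mc := mv_monomial hD c
      rw [ha] at ma
      rw [hb] at mb
      rw [hc] at mc
      have w0 := wt_hG (F := F) hD hi hζ0
      have w1 := w0.mul ((w0.inv fun r => zpow_ne_zero _ hζ0).conj ma)
      have mw : Mv hD ((b : GL D.Idx F) * (c : GL D.Idx F) * (b : GL D.Idx F)⁻¹ * (c : GL D.Idx F)⁻¹) ⁅y, s⁆ :=
        ((mb.mul mc).mul mb.inv).mul mc.inv
      have w2 := w1.mul ((w1.inv fun r => by
        exact mul_ne_zero (zpow_ne_zero _ hζ0) (inv_ne_zero (zpow_ne_zero _ hζ0))).conj mw)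
      have e : ((⁅⁅t, a⁆, ⁅b, c⁆⁆ : ↥(D.monomialSubgroup F)) : GL D.Idx F) = 1 := by rw [hcon]; rfl
      have e2 : hG hD (D.simple i) ζ * ((a : GL D.Idx F) * (hG hD (D.simple i) ζ)⁻¹ * (a : GL D.Idx F)⁻¹) *
          ((b : GL D.Idx F) * (c : GL D.Idx F) * (b : GL D.Idx F)⁻¹ * (c : GL D.Idx F)⁻¹ *
            (hG hD (D.simple i) ζ * ((a : GL D.Idx F) * (hG hD (D.simple i) ζ)⁻¹ * (a : GL D.Idx F)⁻¹))⁻¹ *
            ((b : GL D.Idx F) * (c : GL D.Idx F) * (b : GL D.Idx F)⁻¹ * (c : GL D.Idx F)⁻¹)⁻¹) = 1 := by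
        rw [← e]
        simp only [commutatorElement_def, Subgroup.coe_mul, Subgroup.coe_inv, t]
        group
      rw [e2] at w2
      have h5 := Wt.eq_one w2 r
      apply hr
      have h6 : ζ ^ ((D.cartan i r - D.cartan i (s⁻¹ r)) -
          (D.cartan i ((⁅y, s⁆ : Equiv.Perm (Fin D.nroots))⁻¹ r) -
            D.cartan i (s⁻¹ ((⁅y, s⁆ : Equiv.Perm (Fin D.nroots))⁻¹ r)))) = 1 := by
        rw [← h5, zpow_sub₀ hζ0, zpow_sub₀ hζ0, zpow_sub₀ hζ0]
        simp only [div_eq_mul_inv]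
      have h7 : orderOf (Units.mk0 ζ hζ0) = 3 := by
        refine orderOf_eq_prime (Units.ext ?_) (fun h => hζ1 ?_)
        · simpa using hζ
        · simpa using congrArg Units.val h
      generalize (D.cartan i r - D.cartan i (s⁻¹ r)) -
          (D.cartan i ((⁅y, s⁆ : Equiv.Perm (Fin D.nroots))⁻¹ r) -
            D.cartan i (s⁻¹ ((⁅y, s⁆ : Equiv.Perm (Fin D.nroots))⁻¹ r))) = k at h6 ⊢
      have h9 : Units.mk0 ζ hζ0 ^ k = 1 := by
        apply Units.ext
        rw [Units.val_zpow_eq_zpow_val, Units.val_mk0, h6, Units.val_one]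
      have h8 := orderOf_dvd_iff_zpow_eq_one.2 h9
      rw [h7] at h8
      exact_mod_cast h8
  exact hdd.of_injective (Subgroup.inclusion (monomial_le_group hD F)) (Subgroup.inclusion_injective _)

end Chev

end Cfsg.Agent.H584.HT
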